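import Mathlib
import Cfsg.Agent.Lib.Fgs.ClassSize
import Cfsg.Agent.Lib.Char.ClassCount
import Cfsg.Agent.Lib.Count.Frobenius

/-! Simple groups with few conjugacy classes: radicals of element orders, `p`-parts, counting. -/

set_option autoImplicit false

namespace CfsgLib.FewCl

open Finset Subgroup CfsgLib.Fgs
open scoped _root_.Classical

variable {G : Type*} [Group G] [Finite G]

/-- the radical of the order -/
noncomputable def rad (x : G) : ℕ := ∏ p ∈ (orderOf x).primeFactors, p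

/-- the order of the centraliser -/
noncomputable abbrev cn (x : G) : ℕ := Nat.card (centralizer ({x} : Set G))

theorem dvd_rad {x : G} {p : ℕ} (hp : p.Prime) : p ∣ rad x ↔ p ∣ orderOf x := by
  refine ⟨fun h => h.trans (Nat.prod_primeFactors_dvd _), fun h => ?_⟩
  exact dvd_prod_of_mem _ (Nat.mem_primeFactors.2 ⟨hp, h, (orderOf_pos x).ne'⟩)

theorem ord_dvd_cn (x : G) : orderOf x ∣ cn x := by
  simpa using orderOf_dvd_natCard (⟨x, self_mem_cent x⟩ : centralizer ({x} : Set G))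

theorem rad_dvd_cn (x : G) : rad x ∣ cn x := (Nat.prod_primeFactors_dvd _).trans (ord_dvd_cn x)

theorem rad_eq {x : G} {s : Finset ℕ} (h : ∀ r, r ∈ s ↔ r.Prime ∧ r ∣ orderOf x) : rad x = ∏ p ∈ s, p := by
  rw [rad]; congr 1; ext r; simp [h, (orderOf_pos x).ne']

theorem rad_prime {x : G} {p : ℕ} (hp : p.Prime) : rad x = p ↔ x ≠ 1 ∧ ∃ k, orderOf x = p ^ k := by
  constructor
  · intro h
    refine ⟨by rintro rfl; simp [rad] at h; exact hp.ne_one h.symm, _, Nat.eq_prime_pow_of_unique_prime_dvd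
      (orderOf_pos x).ne' fun {d} hd h1 => ?_⟩
    exact (Nat.prime_dvd_prime_iff_eq hd hp).1 (h ▸ (dvd_rad hd).2 h1)
  · rintro ⟨h1, k, hk⟩
    have hk0 : k ≠ 0 := by rintro rfl; exact h1 (by simpa using hk)
    rw [rad, hk, Nat.primeFactors_prime_pow hk0 hp, prod_singleton]

theorem rad_two {x : G} {p q : ℕ} (hp : p.Prime) (hq : q.Prime) (h : p ≠ q) :
    rad x = p * q ↔ ∀ r, r.Prime → (r ∣ orderOf x ↔ r = p ∨ r = q) := by
  constructor
  · intro h1 r hr
    rw [← dvd_rad hr, h1, hr.dvd_mul, Nat.prime_dvd_prime_iff_eq hr hp, Nat.prime_dvd_prime_iff_eq hr hq]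
  · intro h1
    rw [rad_eq (s := {p, q}) fun r => ?_, prod_pair h]
    rw [mem_insert, mem_singleton]
    exact ⟨fun h2 => by rcases h2 with rfl | rfl <;> simp [h1, hp, hq], fun h2 => (h1 r h2.1).1 h2.2⟩

omit [Finite G] in
theorem ord_conj {x y : G} (h : IsConj x y) : orderOf x = orderOf y := by
  obtain ⟨g, rfl⟩ := isConj_iff.1 h
  exact ((MulAut.conj g).orderOf_eq x).symm

omit [Finite G] in
theorem rad_conj {x y : G} (h : IsConj x y) : rad x = rad y := by rw [rad, rad, ord_conj h]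

theorem cn_conj {x y : G} (h : IsConj x y) : cn x = cn y := Char.card_centralizer_eq_of_isConj h

theorem cn_pos (x : G) : 0 < cn x := Nat.card_pos

theorem cn_dvd (x : G) : cn x ∣ Nat.card G := card_subgroup_dvd_card _

theorem div_cn (x : G) : Nat.card G / cn x = (centralizer ({x} : Set G)).index := by
  rw [← card_mul_index (centralizer ({x} : Set G)), Nat.mul_div_cancel_left _ (cn_pos x)]

theorem cn_sub_dvd (H : Subgroup G) (x : H) : cn x ∣ cn (x : G) := by
  rw [cn, cent_subgroupOf, ← card_map_of_injective H.subtype_injective, subgroupOf_map_subtype]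
  exact card_dvd_of_le inf_le_left

variable (G) in
theorem exists_pe (p : ℕ) : ∃ e : ℕ, p.Prime → (∀ u : G, (∃ k, orderOf u = p ^ k) → u ^ e = u) ∧
    ∀ v : G, ¬ p ∣ orderOf v → v ^ e = 1 := by
  by_cases hp : p.Prime
  swap
  · exact ⟨0, fun h => absurd h hp⟩
  obtain ⟨a, m, hm, hn⟩ := Nat.exists_eq_pow_mul_and_not_dvd (Nat.card_pos (α := G)).ne' p hp.ne_one
  have hc : Nat.Coprime (p ^ a) m := Nat.Coprime.pow_left a ((Nat.Prime.coprime_iff_not_dvd hp).2 hm)
  obtain ⟨e, h1, h2⟩ := Nat.chineseRemainder hc 1 0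
  refine ⟨e, fun _ => ⟨fun u ⟨k, hk⟩ => ?_, fun v hv => ?_⟩⟩
  · have h3 : orderOf u ∣ p ^ a := by
      have := orderOf_dvd_natCard u
      rw [hn, hk] at this
      rw [hk]
      exact (Nat.Coprime.pow_left k ((Nat.Prime.coprime_iff_not_dvd hp).2 hm)).dvd_of_dvd_mul_right this
    conv_rhs => rw [← pow_one u]
    exact pow_eq_pow_iff_modEq.2 (h1.of_dvd h3)
  · have := orderOf_dvd_natCard v
    rw [hn] at this
    exact orderOf_dvd_iff_pow_eq_one.1 (((Nat.Coprime.pow_right a ((Nat.Prime.coprime_iff_not_dvd hp).2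
      hv).symm).dvd_of_dvd_mul_left this).trans (Nat.modEq_zero_iff_dvd.1 h2))

variable (G) in
/-- `x ^ pex G p` is the `p`-part of `x` -/
noncomputable def pex (p : ℕ) : ℕ := (exists_pe G p).choose

variable {p : ℕ} (hp : p.Prime)
include hp

theorem pex_self {u : G} (h : ∃ k, orderOf u = p ^ k) : u ^ pex G p = u :=
  ((exists_pe G p).choose_spec hp).1 u h

theorem pex_mul {u v : G} (h : ∃ k, orderOf u = p ^ k) (hv : ¬ p ∣ orderOf v) (hc : Commute u v) :
    (u * v) ^ pex G p = u := by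
  rw [hc.mul_pow, pex_self hp h, show v ^ pex G p = 1 from ((exists_pe G p).choose_spec hp).2 v hv, mul_one]

theorem pex_spec (x : G) : (∃ k, orderOf (x ^ pex G p) = p ^ k) ∧
    ∃ v, ¬ p ∣ orderOf v ∧ Commute (x ^ pex G p) v ∧ x ^ pex G p * v = x := by
  have := Fact.mk hp
  obtain ⟨a, b, -, -, h1, h2, h3, h4⟩ := exists_p_part p x
  have h5 : x ^ pex G p = a := h1 ▸ pex_mul hp h3 h4 h2
  rw [h5]
  exact ⟨h3, b, h4, h2, h1⟩

theorem ord_mul {u v : G} (h : ∃ k, orderOf u = p ^ k) (hv : ¬ p ∣ orderOf v) (hc : Commute u v) :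
    orderOf (u * v) = orderOf u * orderOf v ∧ (orderOf u).Coprime (orderOf v) := by
  obtain ⟨k, hk⟩ := h
  have : (orderOf u).Coprime (orderOf v) :=
    hk ▸ Nat.Coprime.pow_left k ((Nat.Prime.coprime_iff_not_dvd hp).2 hv)
  exact ⟨hc.orderOf_mul_eq_mul_orderOf_of_coprime this, this⟩

/-- the radical of a product of commuting `p`- and `p'`-elements -/
theorem rad_mul {u v : G} (h : rad u = p) (hv : ¬ p ∣ orderOf v) (hc : Commute u v) {q : ℕ} (hq : q.Prime)
    (hne : p ≠ q) : rad (u * v) = p * q ↔ rad v = q := by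
  obtain ⟨h1, k, hk⟩ := (rad_prime hp).1 h
  have hk0 : k ≠ 0 := by rintro rfl; exact h1 (by simpa using hk)
  have h2 : ∀ r, r.Prime → (r ∣ orderOf (u * v) ↔ r = p ∨ r ∣ orderOf v) := fun r hr => by
    rw [(ord_mul hp ⟨k, hk⟩ hv hc).1, hr.dvd_mul, hk, hr.prime.dvd_pow_iff_dvd hk0,
      Nat.prime_dvd_prime_iff_eq hr hp]
  rw [rad_two hp hq hne]
  constructor
  · intro h3
    refine (rad_eq (s := {q}) fun r => ?_).trans (prod_singleton _ _)
    rw [mem_singleton]
    refine ⟨by rintro rfl; exact ⟨hq, ((h2 r hq).1 ((h3 r hq).2 (Or.inr rfl))).resolve_left hne.symm⟩,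
      fun h4 => ((h3 r h4.1).1 ((h2 r h4.1).2 (Or.inr h4.2))).resolve_left ?_⟩
    rintro rfl; exact hv h4.2
  · intro h3 r hr
    rw [h2 r hr, ← dvd_rad hr, h3, Nat.prime_dvd_prime_iff_eq hr hq]

/-- a `p`-element of a group of order divisible by `p ^ 2` -/
theorem sq_dvd_cn {x : G} (h : ∃ k, orderOf x = p ^ k) (h2 : p * p ∣ Nat.card G) : p * p ∣ cn x := by
  have := Fact.mk hp
  obtain ⟨P, hP⟩ := exists_sylow_mem h
  have h3 : p * p ∣ Nat.card P := by
    rw [P.card_eq_multiplicity, ← sq]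
    exact pow_dvd_pow _ ((hp.pow_dvd_iff_le_factorization Nat.card_pos.ne').1 (sq p ▸ h2))
  refine Dvd.dvd.trans ?_ (cn_sub_dvd (P : Subgroup G) ⟨x, hP⟩)
  set y : (P : Subgroup G) := ⟨x, hP⟩
  by_cases h4 : y ∈ center (P : Subgroup G)
  · rw [cn, cent_eq_top_iff.2 h4, card_top]; exact h3
  obtain ⟨j, hj⟩ := IsPGroup.iff_card.1 (P.isPGroup'.to_subgroup (centralizer ({y} : Set (P : Subgroup G))))
  obtain ⟨i, hi⟩ := IsPGroup.iff_card.1 (P.isPGroup'.to_subgroup (center (P : Subgroup G)))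
  have h5 : Nontrivial P := Finite.one_lt_card_iff_nontrivial.1
    (lt_of_lt_of_le (by nlinarith [hp.one_lt]) (Nat.le_of_dvd Nat.card_pos h3))
  have h6 := Finite.one_lt_card_iff_nontrivial.2 P.isPGroup'.center_nontrivial
  have h7 := lt_of_le_of_ne (card_le_of_le (center_le_cent y)) fun h =>
    h4 (eq_of_le_of_card_ge (center_le_cent y) h.ge ▸ self_mem_cent y)
  rw [hi] at h6
  rw [hi, hj, Nat.pow_lt_pow_iff_right hp.one_lt] at h7
  have h8 : i ≠ 0 := by rintro rfl; simp at h6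
  rw [cn, hj, ← sq]
  exact pow_dvd_pow _ (by omega)

omit hp

/-- the number of elements in a union of classes -/
theorem card_cls [Fintype G] (P : ConjClasses G → Prop) :
    #{x : G | P (ConjClasses.mk x)} = ∑ C with P C, Nat.card G / cn C.out := by
  rw [card_eq_sum_card_fiberwise (f := ConjClasses.mk) (t := univ.filter P) (by simp [Set.MapsTo])]
  refine sum_congr rfl fun C hC => ?_
  rw [div_cn, ← card_filter_isConj_eq_index]
  congr 1
  ext y
  simp only [mem_filter, mem_univ, true_and] at hC ⊢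
  rw [← ConjClasses.mk_eq_mk_iff_isConj, show ConjClasses.mk C.out = C from C.out_eq]
  exact ⟨fun h => h.2.symm, fun h => ⟨h ▸ hC, h.symm⟩⟩

/-- the elements of a union of classes with a given power -/
theorem card_sec [Fintype G] (P : G → Prop) [DecidablePred P] (hP : ∀ x y, IsConj x y → P x → P y) (e : ℕ) (u : G) :
    #{x : G | P x ∧ IsConj u (x ^ e)} = Nat.card G / cn u * #{x : G | P x ∧ x ^ e = u} := by
  rw [card_eq_sum_card_fiberwise (f := (· ^ e)) (t := univ.filter (IsConj u)) (by simp [Set.MapsTo]),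
    div_cn, ← card_filter_isConj_eq_index, ← smul_eq_mul, ← sum_const]
  refine sum_congr rfl fun y hy => ?_
  obtain ⟨g, rfl⟩ := isConj_iff.1 (mem_filter.1 hy).2
  refine (card_bij (fun x _ => g * x * g⁻¹) (fun x hx => ?_) (fun x _ y _ h => by simpa using h)
    fun x hx => ⟨g⁻¹ * x * g, ?_, by group⟩).symm
  · simp only [mem_filter, mem_univ, true_and] at hx ⊢
    rw [conj_pow, hx.2]
    exact ⟨⟨hP _ _ (isConj_iff.2 ⟨g, rfl⟩) hx.1, isConj_iff.2 ⟨g, rfl⟩⟩, rfl⟩
  · simp only [mem_filter, mem_univ, true_and] at hx ⊢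
    refine ⟨hP _ _ (isConj_iff.2 ⟨g⁻¹, by simp⟩) hx.1.1, ?_⟩
    have := conj_pow (i := e) (a := g⁻¹) (b := x)
    rw [inv_inv] at this
    rw [this, hx.2]; group

/-- The Brauer–Fowler bound. -/
theorem bf {t : G} (ht : orderOf t = 2) :
    Nat.card G ≤ cn t * (cn t * (Nat.card (ConjClasses G) - 1) + 1) := by
  have := Fintype.ofFinite G
  set T := univ.filter (IsConj t)
  have h0 : #T * cn t = Nat.card G := by rw [card_filter_isConj_eq_index, index_mul_card]
  have h1 : ∀ a ∈ T, a * a = 1 := fun a ha => by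
    rw [← sq, ← ht, ord_conj (mem_filter.1 ha).2, pow_orderOf_eq_one]
  have h2 : #T.offDiag ≤ ∑ g ∈ univ.erase (1 : G), cn g := by
    rw [card_eq_sum_card_fiberwise (f := fun x => x.1 * x.2) (t := univ.erase 1) fun x hx => ?_]
    · refine sum_le_sum fun g _ => ?_
      rcases (T.offDiag.filter fun x => x.1 * x.2 = g).eq_empty_or_nonempty with h | ⟨y, hy⟩
      · simp [h]
      rw [cn, Nat.card_eq_fintype_card, Fintype.card_subtype]
      have key : ∀ x ∈ T.offDiag.filter fun x => x.1 * x.2 = g, x.1 * g = g⁻¹ * x.1 := fun x hx => by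
        obtain ⟨h3, rfl⟩ := mem_filter.1 hx
        obtain ⟨h4, h5, -⟩ := mem_offDiag.1 h3
        rw [← mul_assoc, h1 _ h4, one_mul, mul_inv_rev, inv_mul_cancel_right, eq_inv_iff_mul_eq_one, h1 _ h5]
      refine card_le_card_of_injOn (fun x => y.1⁻¹ * x.1) (fun x hx => ?_) fun x hx x' hx' h => ?_
      · simp only [coe_filter, mem_univ, true_and, Set.mem_ofPred_eq, mem_centralizer_singleton_iff]
        calc _ = y.1⁻¹ * (x.1 * g) := by group
          _ = y.1⁻¹ * (g⁻¹ * y.1) * (y.1⁻¹ * x.1) := by rw [key x hx]; group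
          _ = _ := by rw [← key y hy]; group
      · have h3 : x.1 = x'.1 := mul_left_cancel h
        exact Prod.ext h3 (mul_left_cancel (a := x.1)
          ((mem_filter.1 hx).2.trans (h3 ▸ (mem_filter.1 hx').2.symm)))
    · obtain ⟨h4, h5, h6⟩ := mem_offDiag.1 hx
      exact mem_erase.2 ⟨fun h => h6 (mul_left_cancel (a := x.1) ((h1 _ h4).trans h.symm)), mem_univ _⟩
  have h3 := Char.sum_card_centralizer (G := G)
  rw [← add_sum_erase _ _ (mem_univ (1 : G)), cent_eq_top_iff.2 (one_mem _), card_top] at h3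
  rw [offDiag_card] at h2
  have h4 : 0 < #T := card_pos.2 ⟨t, mem_filter.2 ⟨mem_univ _, IsConj.refl t⟩⟩
  obtain ⟨k, hk⟩ : ∃ k, Nat.card (ConjClasses G) = k + 1 := ⟨_, (Nat.succ_pred_eq_of_pos Nat.card_pos).symm⟩
  rw [hk] at h3 ⊢
  have h5 : #T * #T ≤ #T * (cn t * k + 1) := by
    rw [← h0] at h3
    nlinarith [Nat.sub_add_cancel (Nat.le_mul_self #T)]
  rw [← h0, mul_comm]
  exact Nat.mul_le_mul_left _ (Nat.le_of_mul_le_mul_left h5 h4)

end CfsgLib.FewCl
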